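import Mathlib
import Cfsg.Agent.Lib.Helper61.QB.Defs
import Cfsg.Agent.Lib.Helper69.CoprimeIndex
import Cfsg.Agent.Lib.Helper76.SylowAux

/-! # S4125 farm (helper61), pieces [X1] [X2] [X2b] (helper63) -/

set_option autoImplicit false

namespace Cfsg.Agent.Lib.Helper63.QB

open Cfsg.Agent.Lib.Helper61.QB

universe u

variable {q p : ℕ} [Fact q.Prime] [Fact p.Prime] {V : Type u} [AddCommGroup V] [Module (ZMod q) V]
  [Finite V]

omit [Finite V] in
theorem stab_eq (A : Subgroup (V ≃ₗ[ZMod q] V)) (v : V) :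
    MulAction.stabilizer A v = (MulAction.stabilizer (V ≃ₗ[ZMod q] V) v).subgroupOf A := by
  ext a
  rw [MulAction.mem_stabilizer_iff, Subgroup.mem_subgroupOf, MulAction.mem_stabilizer_iff]
  rfl

/-- [X1] -/
theorem sameOrb_of_sylIn {A P : Subgroup (V ≃ₗ[ZMod q] V)} (hA : Good q p A) (hP : SylIn p P A) :
    SameOrb P A := by
  intro a ha v
  obtain ⟨k, hk⟩ := hA.2 v
  have hcop : (MulAction.stabilizer A v).index.Coprime (P.subgroupOf A).index := by
    rw [hk]
    exact (Nat.Coprime.pow_right k hP.2.2).symm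
  obtain ⟨b, hb, s, hs, h⟩ := Cfsg.Agent.Lib.Helper69.exists_mul_of_coprime_index
    (MulAction.stabilizer A v) (P.subgroupOf A) hcop ⟨a, ha⟩
  refine ⟨b.1, hb, ?_⟩
  have h1 : a = b.1 * s.1 := congrArg Subtype.val h
  have h2 : s.1 v = v := hs
  rw [h1, LinearEquiv.mul_apply, h2]

/-- [X2] -/
theorem good_of_normIn {A N : Subgroup (V ≃ₗ[ZMod q] V)} (hA : Good q p A) (hN : NormIn N A) :
    Good q p N := by
  refine ⟨Nat.Coprime.coprime_dvd_left (Subgroup.card_dvd_of_le hN.1) hA.1, fun v => ?_⟩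
  obtain ⟨k, hk⟩ := hA.2 v
  have : (N.subgroupOf A).Normal := ⟨fun n hn a => hN.2 a.1 a.2 n.1 hn⟩
  have h1 := Cfsg.Agent.Lib.Helper76.relIndex_dvd_index_of_normal_right
    (MulAction.stabilizer A v) (N.subgroupOf A)
  rw [hk, stab_eq, Subgroup.relIndex_subgroupOf hN.1] at h1
  obtain ⟨j, _, hj⟩ := (Nat.dvd_prime_pow Fact.out).1 h1
  refine ⟨j, ?_⟩
  rw [stab_eq]
  exact hj

/-- [X2b] -/
theorem eq_bot_of_normIn_coprime {A N : Subgroup (V ≃ₗ[ZMod q] V)} (hA : Good q p A)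
    (hN : NormIn N A) (hc : (Nat.card N).Coprime p) : N = ⊥ := by
  have hg := good_of_normIn hA hN
  rw [eq_bot_iff]
  intro n hn
  rw [Subgroup.mem_bot]
  apply LinearEquiv.ext
  intro v
  obtain ⟨k, hk⟩ := hg.2 v
  have h1 : (MulAction.stabilizer N v).index ∣ Nat.card N := Subgroup.index_dvd_card _
  have h2 : (MulAction.stabilizer N v).index = 1 := by
    have h3 : (p ^ k).Coprime (Nat.card N) := (Nat.Coprime.pow_right k hc).symm
    rw [hk] at h1 ⊢
    exact Nat.Coprime.eq_one_of_dvd h3 h1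
  rw [Subgroup.index_eq_one] at h2
  have h4 : (⟨n, hn⟩ : N) ∈ MulAction.stabilizer N v := by rw [h2]; trivial
  exact h4

end Cfsg.Agent.Lib.Helper63.QB
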