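import Mathlib
import Cfsg.Agent.Lib.Helper61.QB.Defs

/-! # S4125 farm (helper61), pieces [X3a] [X3q] [X3b] [X3] (helper63) -/

set_option autoImplicit false

namespace Cfsg.Agent.Lib.Helper63.QB

open Cfsg.Agent.Lib.Helper61.QB

universe u

variable {q p : ℕ} [Fact q.Prime] [Fact p.Prime] {V : Type u} [AddCommGroup V] [Module (ZMod q) V]
  [Finite V]

/-- [X3a] -/
theorem good_range_res {S : Subgroup (V ≃ₗ[ZMod q] V)} (W : Submodule (ZMod q) V)
    (hW : ∀ a ∈ S, ∀ w ∈ W, a w ∈ W) (hc : (Nat.card S).Coprime q)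
    (hS : ∀ w ∈ W, ∃ k : ℕ, (MulAction.stabilizer S w).index = p ^ k) :
    Good q p (resHom S W hW).range := by
  refine ⟨Nat.Coprime.coprime_dvd_left (Subgroup.card_range_dvd _) hc, fun w => ?_⟩
  obtain ⟨k, hk⟩ := hS w.1 w.2
  refine ⟨k, ?_⟩
  rw [← Subgroup.index_comap_of_surjective _ (resHom S W hW).rangeRestrict_surjective, ← hk]
  congr 1
  ext a
  rw [Subgroup.mem_comap, MulAction.mem_stabilizer_iff, MulAction.mem_stabilizer_iff]
  constructor
  · intro h
    have h1 : resHom S W hW a w = w := h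
    have h2 := congrArg Subtype.val h1
    rw [resHom_apply] at h2
    exact h2
  · intro h
    have h1 : a.1 (w : V) = w := h
    show resHom S W hW a w = w
    apply Subtype.ext
    rw [resHom_apply]
    exact h1

/-- [X3q] -/
theorem good_range_quot {A : Subgroup (V ≃ₗ[ZMod q] V)} (hA : Good q p A)
    (W : Submodule (ZMod q) V) (hW : ∀ a ∈ A, ∀ w ∈ W, a w ∈ W) :
    Good q p (quotHom A W hW).range := by
  refine ⟨Nat.Coprime.coprime_dvd_left (Subgroup.card_range_dvd _) hA.1, fun w => ?_⟩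
  obtain ⟨v, rfl⟩ := Submodule.Quotient.mk_surjective W w
  obtain ⟨k, hk⟩ := hA.2 v
  rw [← Subgroup.index_comap_of_surjective _ (quotHom A W hW).rangeRestrict_surjective]
  have hle : MulAction.stabilizer A v ≤ (MulAction.stabilizer (quotHom A W hW).range
      (Submodule.Quotient.mk v : V ⧸ W)).comap (quotHom A W hW).rangeRestrict := by
    intro a ha
    rw [Subgroup.mem_comap, MulAction.mem_stabilizer_iff]
    show quotHom A W hW a (Submodule.Quotient.mk v) = Submodule.Quotient.mk v
    rw [quotHom_mk]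
    have h1 : a.1 v = v := ha
    rw [h1]
  have h1 := Subgroup.index_dvd_of_le hle
  rw [hk] at h1
  obtain ⟨j, _, hj⟩ := (Nat.dvd_prime_pow Fact.out).1 h1
  exact ⟨j, hj⟩

/-- [X3b] -/
theorem eq_one_of_res_quot {A : Subgroup (V ≃ₗ[ZMod q] V)} (hc : (Nat.card A).Coprime q)
    (W : Submodule (ZMod q) V) (hW : ∀ a ∈ A, ∀ w ∈ W, a w ∈ W) (a : A)
    (h1 : resHom A W hW a = 1) (h2 : quotHom A W hW a = 1) : a = 1 := by
  have hfix : ∀ w ∈ W, a.1 w = w := by
    intro w hw
    have h3 := congrArg (fun f : W ≃ₗ[ZMod q] W => ((f ⟨w, hw⟩ : W) : V)) h1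
    simpa using h3
  have hmem : ∀ v : V, a.1 v - v ∈ W := by
    intro v
    have h3 := congrArg (fun f : (V ⧸ W) ≃ₗ[ZMod q] (V ⧸ W) => f (Submodule.Quotient.mk v)) h2
    simp only [quotHom_mk, LinearEquiv.coe_one, id_eq] at h3
    exact (Submodule.Quotient.eq W).1 h3
  have hpow : ∀ (j : ℕ) (v : V), (a.1 ^ j) v = v + j • (a.1 v - v) := by
    intro j
    induction j with
    | zero => intro v; simp
    | succ j ih =>
      intro v
      rw [pow_succ', LinearEquiv.mul_apply, ih, map_add, map_nsmul, hfix _ (hmem v), succ_nsmul]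
      abel
  have hq : a ^ q = 1 := by
    apply Subtype.ext
    apply LinearEquiv.ext
    intro v
    show (a.1 ^ q) v = v
    rw [hpow, ZModModule.char_nsmul_eq_zero q, add_zero]
  have h3 : orderOf a ∣ q := orderOf_dvd_of_pow_eq_one hq
  have h4 : orderOf a ∣ Nat.card A := orderOf_dvd_natCard a
  have h5 : orderOf a = 1 := Nat.eq_one_of_dvd_coprimes hc h4 h3
  exact orderOf_eq_one_iff.1 h5

/-- [X3] -/
theorem solvable_of_invariant {A : Subgroup (V ≃ₗ[ZMod q] V)} (hA : Good q p A)
    (ih : IH.{u} q p (Nat.card V + Nat.card A)) (W : Submodule (ZMod q) V)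
    (hW : ∀ a ∈ A, ∀ w ∈ W, a w ∈ W) (h0 : W ≠ ⊥) (h1 : W ≠ ⊤) : Group.IsSolvable A := by
  have hcW : Nat.card W < Nat.card V := by
    obtain ⟨x, hx⟩ : ∃ x, x ∉ W := by
      by_contra h
      push Not at h
      exact h1 (eq_top_iff.2 fun y _ => h y)
    exact Finite.card_subtype_lt hx
  have hfin : Finite (V ⧸ W) := Finite.of_surjective _ (Submodule.Quotient.mk_surjective W)
  have hcQ : Nat.card (V ⧸ W) < Nat.card V := by
    have h2 := Submodule.card_eq_card_quotient_mul_card W
    have h3 : 1 < Nat.card W := by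
      rw [Finite.one_lt_card_iff_nontrivial]
      exact (Submodule.nontrivial_iff_ne_bot).2 h0
    have h4 : 0 < Nat.card (V ⧸ W) := Nat.card_pos
    rw [h2]
    nlinarith
  have hr1 : Nat.card (resHom A W hW).range ≤ Nat.card A :=
    Nat.le_of_dvd Nat.card_pos (Subgroup.card_range_dvd _)
  have hr2 : Nat.card (quotHom A W hW).range ≤ Nat.card A :=
    Nat.le_of_dvd Nat.card_pos (Subgroup.card_range_dvd _)
  have s1 : Group.IsSolvable (resHom A W hW).range :=
    ih W _ (good_range_res W hW hA.1 (fun w _ => hA.2 w)) (by omega)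
  have s2 : Group.IsSolvable (quotHom A W hW).range :=
    ih (V ⧸ W) _ (good_range_quot hA W hW) (by omega)
  refine Group.isSolvable_of_isSolvable_injective
    (f := (resHom A W hW).rangeRestrict.prod (quotHom A W hW).rangeRestrict) ?_
  rw [injective_iff_map_eq_one]
  intro a ha
  have h2 := congrArg Prod.fst ha
  have h3 := congrArg Prod.snd ha
  apply eq_one_of_res_quot hA.1 W hW a
  · exact congrArg Subtype.val h2
  · exact congrArg Subtype.val h3

end Cfsg.Agent.Lib.Helper63.QB
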